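import Cfsg.Agent.H450.Bs.Herm
import Cfsg.Agent.H358.Bs.Amb
import Cfsg.Agent.H847.Bs.Stmts
import Cfsg.Agent.LieClassical.HermPerfect

/-!
# BR3: hermitian `Frm` and the matrix groups `SU n F q` (helper450, S5733)

* `equivSU` : `Φ.Iso ⊓ slV F V ≃* SU n F r`, `n = finrank F V`;
* `rb_siso_of_psu` : `RB c (PSU n F r) → RB c (Φ.Iso ⊓ slV F V)`;
* `s40u_of` : `S40u` from the row of the groups `PSU_4`.
-/

set_option autoImplicit false

namespace Cfsg.Agent.H450.Bs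

open Module Cfsg Cfsg.Agent.H91.U Cfsg.Agent.H847.Bs Cfsg.Agent.LieClassical.HermBasic Cfsg.Agent.H450.UF
open Cfsg.Agent.H77.Witt (formB formB_apply)

/-- isometric spaces have isomorphic special isometry groups -/
noncomputable def sisoEquiv {F V V' : Type*} [Field F] [AddCommGroup V] [Module F V] [AddCommGroup V'] [Module F V']
    {σ σ' : F →+* F} {B : V →ₛₗ[σ] V →ₗ[F] F} {B' : V' →ₛₗ[σ'] V' →ₗ[F] F} (φ : V ≃ₗ[F] V')
    (h : ∀ v w, B' (φ v) (φ w) = B v w) : SIso B ≃* SIso B' where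
  toFun g := ⟨φ.symm ≪≫ₗ g.1 ≪≫ₗ φ, by rw [LinearEquiv.det_conj]; exact g.2.1, fun x y => by
    have h1 : ∀ z w, B' (φ (g.1 z)) (φ (g.1 w)) = B' (φ z) (φ w) := fun z w => by rw [h, g.2.2, ← h]
    have h2 := h1 (φ.symm x) (φ.symm y)
    rw [φ.apply_symm_apply, φ.apply_symm_apply] at h2
    exact h2⟩
  invFun g := ⟨φ ≪≫ₗ g.1 ≪≫ₗ φ.symm, by
      have := LinearEquiv.det_conj g.1 φ.symm
      rw [LinearEquiv.symm_symm] at this
      rw [this]
      exact g.2.1, fun x y => by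
    change B (φ.symm (g.1 (φ x))) (φ.symm (g.1 (φ y))) = _
    rw [← h, φ.apply_symm_apply, φ.apply_symm_apply, g.2.2, h]⟩
  left_inv g := Subtype.ext (LinearEquiv.ext fun x => by
    change φ.symm (φ (g.1 (φ.symm (φ x)))) = _
    rw [φ.symm_apply_apply, φ.symm_apply_apply])
  right_inv g := Subtype.ext (LinearEquiv.ext fun x => by
    change φ (φ.symm (g.1 (φ (φ.symm x)))) = _
    rw [φ.apply_symm_apply, φ.apply_symm_apply])
  map_mul' g g' := Subtype.ext (LinearEquiv.ext fun x => by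
    change φ (g.1 (g'.1 (φ.symm x))) = φ (g.1 (φ.symm (φ (g'.1 (φ.symm x)))))
    rw [φ.symm_apply_apply])

variable {F V : Type*} [Field F] [Fintype F] [AddCommGroup V] [Module F V] {Φ : Frm F V} {r : ℕ}

/-- **the special isometry group of a hermitian space is `SU n F r`** -/
theorem equivSU [FiniteDimensional F V] (hF : Fintype.card F = r ^ 2) (hΦ : IsHerm r Φ) {n : ℕ}
    (hn : finrank F V = n) : Nonempty (↥(Φ.Iso ⊓ slV F V) ≃* SU n F r) := by
  subst hn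
  obtain ⟨φ, hφ⟩ := exists_model hF (hform_toB hF hΦ)
  have e1 : SIso (toB hF hΦ) ≃* SIso (formB hF (finrank F V)) := sisoEquiv φ fun v w => by
    rw [formB_apply, hφ]
  exact ⟨(MulEquiv.subgroupCongr (siso_toB hF hΦ).symm).trans (e1.trans (toIso hF).symm)⟩

/-- transfer of the bound from `PSU` -/
theorem rb_siso_of_psu [FiniteDimensional F V] (hF : Fintype.card F = r ^ 2) (hΦ : IsHerm r Φ) {n : ℕ}
    (hn : finrank F V = n) (h3 : 3 ≤ n) (h32 : ¬(n = 3 ∧ r = 2)) {c : ℝ} (h : RB c (PSU n F r)) :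
    RB c ↥(Φ.Iso ⊓ slV F V) := by
  obtain ⟨e⟩ := equivSU hF hΦ hn
  have hf : Finite (SU n F r) := inferInstance
  have h1 : RB c (SU n F r) :=
    Cfsg.Agent.H358.Bs.RB.of_center (Cfsg.Agent.LieClassical.HermPerfect.commutator_SU_eq_top hF h3 h32) h
  exact Cfsg.Agent.H358.Bs.RB.congr e.symm h1

/-- transfer of the bound to `PSU` -/
theorem rb_psu_of_siso [FiniteDimensional F V] (hF : Fintype.card F = r ^ 2) (hΦ : IsHerm r Φ) {n : ℕ}
    (hn : finrank F V = n) {c : ℝ} (h : RB c ↥(Φ.Iso ⊓ slV F V)) : RB c (PSU n F r) := by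
  obtain ⟨e⟩ := equivSU hF hΦ hn
  have hf : Finite ↥(Φ.Iso ⊓ slV F V) := Finite.of_equiv _ e.symm.toEquiv
  have h1 : RB c (SU n F r) := Cfsg.Agent.H358.Bs.RB.congr e h
  exact Cfsg.Agent.H358.Bs.RB.of_surjective (QuotientGroup.mk' (Subgroup.center (SU n F r)))
    (QuotientGroup.mk'_surjective _) h1

/-- **`S40u` from the row of the groups `PSU_4`** -/
theorem s40u_of (h : ∃ ε : ℝ, 0 < ε ∧ ∀ (F : Type) [Field F] [Fintype F] (q : ℕ), Fintype.card F = q ^ 2 →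
    RB ε (PSU 4 F q)) : S40u := by
  obtain ⟨ε, hε, h⟩ := h
  refine ⟨ε, hε, fun F W _ _ _ _ _ r Φ hΦ hn => ?_⟩
  have := Fintype.ofFinite F
  have hF : Fintype.card F = r ^ 2 := by rw [← Nat.card_eq_fintype_card, hΦ.card]
  exact rb_siso_of_psu hF hΦ hn (by omega) (by omega) (h F r hF)

end Cfsg.Agent.H450.Bs
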